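import Mathlib

/-!
# Orbits of a permutation of `p`-power order

`sum_eq_sum_fixed_pow`: if `σ` is a permutation of a finite set with `σ ^ (p ^ m) = 1` and `F` is
`σ`-invariant, then `∑ F` is congruent modulo `p ^ (r + 1)` to the sum over the fixed points of
`σ ^ (p ^ r)`.
-/

set_option autoImplicit false

namespace Cfsg.Agent.H652.OrbitPow

theorem card_orbit_smul_sum {Γ Ω A : Type*} [Group Γ] [MulAction Γ Ω] [Fintype Ω] [AddCommGroup A]
    {n : ℕ} (F : Ω → A) (hF : ∀ (g : Γ) (ω : Ω), F (g • ω) = F ω)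
    (h : ∀ ω : Ω, F ω ≠ 0 → n ∣ Nat.card (MulAction.orbit Γ ω)) : ∃ c : A, ∑ ω, F ω = n • c := by
  classical
  have e := MulAction.selfEquivSigmaOrbits Γ Ω
  have : Fintype (MulAction.orbitRel.Quotient Γ Ω) := Fintype.ofFinite _
  have : ∀ q : MulAction.orbitRel.Quotient Γ Ω, Fintype (MulAction.orbit Γ (Quotient.out q)) :=
    fun q => Fintype.ofFinite _
  have h1 : ∑ ω, F ω = ∑ q : MulAction.orbitRel.Quotient Γ Ω,
      Nat.card (MulAction.orbit Γ (Quotient.out q)) • F (Quotient.out q) := by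
    rw [← Equiv.sum_comp (MulAction.selfEquivSigmaOrbits Γ Ω).symm, Fintype.sum_sigma]
    refine Finset.sum_congr rfl fun q _ => ?_
    rw [Nat.card_eq_fintype_card, ← Finset.card_univ, ← Finset.sum_const]
    refine Finset.sum_congr rfl fun x _ => ?_
    obtain ⟨x, g, rfl⟩ := x
    exact hF g _
  have h2 : ∀ q : MulAction.orbitRel.Quotient Γ Ω, ∃ c : A,
      Nat.card (MulAction.orbit Γ (Quotient.out q)) • F (Quotient.out q) = n • c := by
    intro q
    by_cases hq : F (Quotient.out q) = 0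
    · exact ⟨0, by rw [hq, smul_zero, smul_zero]⟩
    · obtain ⟨k, hk⟩ := h _ hq
      exact ⟨k • F (Quotient.out q), by rw [hk, mul_smul]⟩
  choose c hc using h2
  refine ⟨∑ q, c q, ?_⟩
  rw [h1, Finset.sum_congr rfl fun q _ => hc q, Finset.smul_sum]

open Classical in
theorem sum_eq_sum_fixed_pow {Ω A : Type*} [Fintype Ω] [AddCommGroup A] {p : ℕ} (hp : p.Prime)
    (σ : Equiv.Perm Ω) {m r : ℕ} (hσ : σ ^ (p ^ m) = 1) (F : Ω → A) (hF : ∀ ω, F (σ ω) = F ω) :
    ∃ c : A, ∑ ω, F ω = ∑ ω ∈ Finset.univ.filter (fun ω => (σ ^ (p ^ r)) ω = ω), F ω +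
      p ^ (r + 1) • c := by
  set F' : Ω → A := fun ω => if (σ ^ (p ^ r)) ω = ω then 0 else F ω with hF'
  have hsum : ∑ ω, F ω = ∑ ω ∈ Finset.univ.filter (fun ω => (σ ^ (p ^ r)) ω = ω), F ω +
      ∑ ω, F' ω := by
    rw [Finset.sum_filter, ← Finset.sum_add_distrib]
    refine Finset.sum_congr rfl fun ω _ => ?_
    rw [hF']
    by_cases h : (σ ^ (p ^ r)) ω = ω
    · simp only [h, if_true, add_zero]
    · simp only [h, if_false, zero_add]
  have hinv1 : ∀ ω, F' (σ ω) = F' ω := by
    intro ω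
    have h1 : (σ ^ (p ^ r)) (σ ω) = σ ω ↔ (σ ^ (p ^ r)) ω = ω := by
      rw [← Equiv.Perm.mul_apply, ← pow_succ, pow_succ', Equiv.Perm.mul_apply]
      exact σ.injective.eq_iff
    rw [hF']
    simp only [h1, hF]
  have hinv : ∀ (g : Subgroup.zpowers σ) (ω : Ω), F' (g • ω) = F' ω := by
    rintro ⟨g, k, rfl⟩ ω
    change F' ((σ ^ k) ω) = F' ω
    induction k with
    | zero => rw [zpow_zero, Equiv.Perm.one_apply]
    | succ k ih =>
      rw [zpow_add_one, Equiv.Perm.mul_apply]
      have key : ∀ (n : ℕ) (ω : Ω), F' ((σ ^ n) ω) = F' ω := by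
        intro n
        induction n with
        | zero => intro ω; rw [pow_zero, Equiv.Perm.one_apply]
        | succ n ihn => intro ω; rw [pow_succ, Equiv.Perm.mul_apply, ihn, hinv1]
      rw [zpow_natCast, key, hinv1]
    | pred k ih =>
      have key : ∀ (n : ℕ) (ω : Ω), F' ((σ ^ (-(n : ℤ))) ω) = F' ω := by
        intro n
        induction n with
        | zero => intro ω; rw [Nat.cast_zero, neg_zero, zpow_zero, Equiv.Perm.one_apply]
        | succ n ihn =>
          intro ω
          have h2 : -((n + 1 : ℕ) : ℤ) = -(n : ℤ) + (-1) := by push_cast; ring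
          rw [h2, zpow_add, Equiv.Perm.mul_apply, ihn, zpow_neg_one]
          have h3 := hinv1 (σ⁻¹ ω)
          have h5 : σ (σ⁻¹ ω) = ω := by
            rw [← Equiv.Perm.mul_apply, mul_inv_cancel, Equiv.Perm.one_apply]
          rw [h5] at h3
          exact h3.symm
      have h4 : -(k : ℤ) - 1 = -((k + 1 : ℕ) : ℤ) := by push_cast; ring
      rw [h4, key]
  obtain ⟨c, hc⟩ := card_orbit_smul_sum (Γ := Subgroup.zpowers σ) (n := p ^ (r + 1)) F' hinv (by
    intro ω hω
    have hne : (σ ^ (p ^ r)) ω ≠ ω := by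
      intro h
      apply hω
      rw [hF']
      simp only [h, if_true]
    have hcard : Nat.card (MulAction.orbit (Subgroup.zpowers σ) ω) =
        Function.minimalPeriod (σ • ·) ω := by
      rw [MulAction.minimalPeriod_eq_card, Nat.card_eq_fintype_card]
    have hdvd : Function.minimalPeriod (σ • ·) ω ∣ p ^ m := by
      apply Function.IsPeriodicPt.minimalPeriod_dvd
      rw [Function.IsPeriodicPt, Function.IsFixedPt, smul_iterate_apply, hσ, one_smul]
    obtain ⟨j, hj, hj'⟩ := (Nat.dvd_prime_pow hp).1 hdvd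
    rw [hcard, hj']
    apply pow_dvd_pow
    by_contra hlt
    apply hne
    have h5 : Function.IsPeriodicPt (σ • ·) (p ^ r) ω := by
      rw [Function.isPeriodicPt_iff_minimalPeriod_dvd, hj']
      exact pow_dvd_pow _ (by omega)
    rw [Function.IsPeriodicPt, Function.IsFixedPt, smul_iterate_apply] at h5
    exact h5)
  exact ⟨c, by rw [hsum, hc]⟩

end Cfsg.Agent.H652.OrbitPow
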