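import Cfsg.Agent.H644.Uniq
import Cfsg.Agent.H644.ConjMax
import Cfsg.Agent.H644.Maximal
import Cfsg.Agent.H646.UCov
import Cfsg.Agent.H649.FusBlock
import Cfsg.Agent.H652.OrbitPow
import Cfsg.Agent.H652.PairBasic

/-!
# Blocks and normal subgroups of `p`-power index (Cabanes)

`N` is normal of `p`-power index in `G`, `H` is a subgroup of `G` and `L = H ∩ N`.

* `emb_idem_eq`: the idempotent of a block of `H` has support in `L`;
* `Und g b`: the block `b` of `L` lies under the block `g` of `H`; `exists_und`, `exists_conj_of_und`;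
* `exists_fixed_und`: an element of order a power of `q ≠ p` normalizing `H` and fixing `g` fixes some
  `b` under `g`.
-/

set_option autoImplicit false
set_option linter.unusedSectionVars false

open Cfsg

namespace Cfsg.Agent.H652.Cabanes

open Cfsg.Agent.H644
open Cfsg.Agent.Blocks.Local Cfsg.Agent.Blocks.ConvCentral Cfsg.Agent.Blocks.MinMax
open Cfsg.Agent.Blocks.Basic (isPBlock_nonempty isPBlock_mem_iff isPBlock_eq_of_mem
  isPBlock_eq_blockOf isPBlock_sameBlock isPBlock_mem_of_sameBlock isPBlock_blockOf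
  mem_blockOf_self)

variable {p : ℕ} {M : Ideal AlgInt} [M.IsPrime] {G : Type*} [Group G] [Finite G]

theorem relIndex_pow (hp : p.Prime) (N : Subgroup G) [N.Normal] (hN : ∃ k : ℕ, N.index = p ^ k)
    (H : Subgroup G) : ∃ k : ℕ, (N.subgroupOf H).index = p ^ k := by
  obtain ⟨k, hk⟩ := hN
  have h1 : (N.subgroupOf H).index ∣ p ^ k := by
    rw [← hk]
    exact Subgroup.relIndex_dvd_index_of_normal N H
  obtain ⟨m, -, hm⟩ := (Nat.dvd_prime_pow hp).1 h1
  exact ⟨m, hm⟩

/-- The idempotent of a block of `H` is supported on `N`. -/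
theorem coeff_emb_idem_eq_zero (hM : IsPModular p M) (N : Subgroup G) [N.Normal]
    (hN : ∃ k : ℕ, N.index = p ^ k) {H : Subgroup G} {g : Set (IrrCharacter H)}
    (hg : IsPBlock M g) {x : G} (hx : x ∉ N) : (emb H (idem M g)).coeff x = 0 := by
  classical
  have : Fact p.Prime := ⟨hM.1⟩
  have := Fintype.ofFinite G
  by_cases hxH : x ∈ H
  · rw [coeff_emb_of_mem _ hxH, coeff_idem]
    have : Fintype (N.subgroupOf H) := Fintype.ofFinite _
    have hU := Cfsg.Agent.H646.UCov.ucov_of_index hM (N.subgroupOf H) (relIndex_pow hM.1 N hN H)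
    rw [Cfsg.Agent.H646.UCov.blockCoeff_eq (N.subgroupOf H) hU hg, dif_neg, redC_zero]
    rwa [Subgroup.mem_subgroupOf]
  · exact coeff_emb_of_notMem _ hxH

theorem emb_idem_eq (hM : IsPModular p M) (N : Subgroup G) [N.Normal]
    (hN : ∃ k : ℕ, N.index = p ^ k) {H L : Subgroup G} (hL : L = H ⊓ N)
    {g : Set (IrrCharacter H)} (hg : IsPBlock M g) :
    emb L (res L (emb H (idem M g))) = emb H (idem M g) := by
  refine ext_coeff fun x => ?_
  by_cases hx : x ∈ L
  · rw [coeff_emb_of_mem _ hx, coeff_res]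
  · rw [coeff_emb_of_notMem _ hx]
    by_cases hxN : x ∈ N
    · have hxH : x ∉ H := fun h => hx (by rw [hL]; exact ⟨h, hxN⟩)
      rw [coeff_emb_of_notMem _ hxH]
    · rw [coeff_emb_idem_eq_zero hM N hN hg hxN]

/-- The block `b` of `L` lies under the block `g` of `H`. -/
def Und {H L : Subgroup G} (M : Ideal AlgInt) [M.IsPrime] (g : Set (IrrCharacter H))
    (b : Set (IrrCharacter L)) : Prop :=
  emb H (idem M g) * emb L (idem M b) = emb L (idem M b)

section

variable (N : Subgroup G) [N.Normal] {H L : Subgroup G}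

theorem isCls_res_emb (hL : L ≤ H) (g : Set (IrrCharacter H)) :
    IsCls (res L (emb H (idem M g))) :=
  isCls_res (isInv_mono hL (isInv_emb (isCls_idem g)))

theorem res_emb_mul_self (hM : IsPModular p M) (hN : ∃ k : ℕ, N.index = p ^ k)
    (hL : L = H ⊓ N) {g : Set (IrrCharacter H)} (hg : IsPBlock M g) :
    res L (emb H (idem M g)) * res L (emb H (idem M g)) = res L (emb H (idem M g)) := by
  apply emb_injective L
  rw [map_mul, emb_idem_eq hM N hN hL hg, ← map_mul, idem_mul_self hM (isUnion_of_isPBlock hg)]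

/-- The central character of `b` at the restriction of the idempotent of `g`. -/
theorem und_iff (hM : IsPModular p M) (hN : ∃ k : ℕ, N.index = p ^ k)
    (hL : L = H ⊓ N) {g : Set (IrrCharacter H)} (hg : IsPBlock M g)
    {b : Set (IrrCharacter L)} (hb : IsPBlock M b) {ξ : IrrCharacter L} (hξ : ξ ∈ b) :
    Und M g b ↔ lam M (ξ : L → ℂ) (res L (emb H (idem M g))) = 1 := by
  have hLH : L ≤ H := by rw [hL]; exact inf_le_left
  have hc := isCls_res_emb (M := M) hLH g
  have hs := res_emb_mul_self N hM hN hL hg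
  have hE : emb H (idem M g) * emb L (idem M b) =
      emb L (res L (emb H (idem M g)) * idem M b) := by
    rw [map_mul, emb_idem_eq hM N hN hL hg]
  unfold Und
  rw [hE, (emb_injective L).eq_iff]
  constructor
  · intro h
    have h1 := congrArg (lam M (ξ : L → ℂ)) h
    rw [lam_mul ξ hc (isCls_idem b), lam_idem_of_mem hM (isUnion_of_isPBlock hb) hξ, mul_one] at h1
    exact h1
  · intro h
    exact mul_idem_of_lam_eq_one hM hc hs (isUnion_of_isPBlock hb) fun χ hχ => by
      rw [lam_eq_of_mem hb hχ hξ]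
      exact h

/-- Every block of `L` lies under a block of `H`. -/
theorem exists_und (hM : IsPModular p M) (hN : ∃ k : ℕ, N.index = p ^ k)
    (hL : L = H ⊓ N) {b : Set (IrrCharacter L)} (hb : IsPBlock M b) :
    ∃ g : Set (IrrCharacter H), IsPBlock M g ∧ Und M g b := by
  classical
  have := Fintype.ofFinite (Blk M H)
  obtain ⟨ξ, hξ⟩ := isPBlock_nonempty hb
  have hLH : L ≤ H := by rw [hL]; exact inf_le_left
  by_contra hcon
  push Not at hcon
  have h1 : ∑ g : Blk M H, lam M (ξ : L → ℂ) (res L (emb H (idem M g.1))) = 1 := by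
    rw [← map_sum, ← map_sum, ← map_sum, sum_idem_eq_one hM, map_one, res_one, lam_one]
  rw [Finset.sum_eq_zero] at h1
  · exact zero_ne_one h1
  · intro g _
    have h2 := hcon g.1 g.2
    rw [und_iff N hM hN hL g.2 hb hξ] at h2
    exact (lam_idempotent ξ (isCls_res_emb hLH g.1) (res_emb_mul_self N hM hN hL g.2)).resolve_right
      h2

theorem emb_idem_ne_zero (hM : IsPModular p M) {b : Set (IrrCharacter L)} (hb : IsPBlock M b) :
    emb L (idem M b) ≠ 0 := by
  intro h
  rw [← map_zero (emb L), (emb_injective L).eq_iff] at h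
  exact idem_ne_zero hM (isUnion_of_isPBlock hb) (isPBlock_nonempty hb) h

/-- The block of `H` over `b` is unique. -/
theorem und_unique (hM : IsPModular p M) {g g' : Set (IrrCharacter H)} (hg : IsPBlock M g)
    (hg' : IsPBlock M g') {b : Set (IrrCharacter L)} (hb : IsPBlock M b) (h : Und M g b)
    (h' : Und M g' b) : g = g' := by
  by_contra hne
  apply emb_idem_ne_zero hM hb
  unfold Und at h h'
  rw [← h, ← h', ← mul_assoc, ← map_mul, idem_mul_idem_of_ne hM hg hg' hne, map_zero, zero_mul]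

/-- Every block of `H` has a block of `L` under it. -/
theorem exists_und' (hM : IsPModular p M) (hN : ∃ k : ℕ, N.index = p ^ k)
    (hL : L = H ⊓ N) {g : Set (IrrCharacter H)} (hg : IsPBlock M g) :
    ∃ b : Set (IrrCharacter L), IsPBlock M b ∧ Und M g b := by
  classical
  have := Fintype.ofFinite (Blk M L)
  by_contra hcon
  push Not at hcon
  have hLH : L ≤ H := by rw [hL]; exact inf_le_left
  apply emb_idem_ne_zero hM hg
  rw [← emb_idem_eq hM N hN hL hg, eq_sum_mul_idem hM (res L (emb H (idem M g)))]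
  rw [Finset.sum_eq_zero, map_zero]
  intro b _
  obtain ⟨ξ, hξ⟩ := isPBlock_nonempty b.2
  have h2 := hcon b.1 b.2
  rw [und_iff N hM hN hL hg b.2 hξ] at h2
  have h3 := (lam_idempotent ξ (isCls_res_emb hLH g) (res_emb_mul_self N hM hN hL hg)).resolve_right
      h2
  exact mul_idem_of_lam_eq_zero hM (isCls_res_emb hLH g) (res_emb_mul_self N hM hN hL hg)
    (isUnion_of_isPBlock b.2) fun χ hχ => by
      rw [lam_eq_of_mem b.2 hχ hξ]
      exact h3

/-- Central characters of blocks under `g`, at `H`-invariant elements. -/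
theorem lam_eq_of_und (hM : IsPModular p M) (hN : ∃ k : ℕ, N.index = p ^ k)
    (hL : L = H ⊓ N) {g : Set (IrrCharacter H)} (hg : IsPBlock M g)
    {χ : IrrCharacter H} (hχ : χ ∈ g) {b : Set (IrrCharacter L)} (hb : IsPBlock M b)
    (h : Und M g b) {ξ : IrrCharacter L} (hξ : ξ ∈ b) {z : MonoidAlgebra (ResField M) L}
    (hz : IsCls z) (hzH : IsInv H (emb L z)) :
    lam M (ξ : L → ℂ) z = lam M (χ : H → ℂ) (res H (emb L z)) := by
  have hLH : L ≤ H := by rw [hL]; exact inf_le_left
  set c := lam M (χ : H → ℂ) (res H (emb L z)) with hc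
  -- the element `z - c` is nilpotent on `g`
  set y : MonoidAlgebra (ResField M) H := res H (emb L z) - c • 1 with hy
  have hyc : IsCls y := isCls_sub (isCls_res hzH) (isCls_smul isCls_one _)
  have hy0 : ∀ ψ ∈ g, lam M (ψ : H → ℂ) y = 0 := by
    intro ψ hψ
    rw [hy, map_sub, map_smul, lam_one, lam_eq_of_mem hg hψ hχ, smul_eq_mul, mul_one, sub_self]
  have h1 := mul_idem_pow_eq_zero hM hyc (isUnion_of_isPBlock hg) hy0
  set n := Nat.card (IrrCharacter H) with hn
  have h2 : emb H y = emb L (z - c • 1) := by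
    rw [hy, map_sub, map_sub, map_smul, map_smul, map_one, map_one]
    congr 1
    refine ext_coeff fun x => ?_
    by_cases hx : x ∈ H
    · rw [coeff_emb_of_mem _ hx, coeff_res]
    · rw [coeff_emb_of_notMem _ hx, coeff_emb_of_notMem]
      exact fun h => hx (hLH h)
  have h3 : emb L ((z - c • 1) ^ n * res L (emb H (idem M g))) = 0 := by
    rw [map_mul, map_pow, ← h2, emb_idem_eq hM N hN hL hg, ← map_pow, ← map_mul, h1, map_zero]
  rw [← map_zero (emb L), (emb_injective L).eq_iff] at h3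
  have hzc : IsCls (z - c • 1) := isCls_sub hz (isCls_smul isCls_one _)
  have h4 := congrArg (lam M (ξ : L → ℂ)) h3
  rw [lam_mul ξ (isCls_pow hzc n) (isCls_res_emb hLH g), (und_iff N hM hN hL hg hb hξ).1 h, mul_one,
    lam_pow ξ hzc, map_zero] at h4
  have hn0 : n ≠ 0 := by
    have hfin : Finite (IrrCharacter H) := Cfsg.Agent.Characters.Core.finite_irr
    have : Nonempty (IrrCharacter H) := ⟨χ⟩
    exact Nat.card_pos.ne'
  rw [pow_eq_zero_iff hn0, map_sub, map_smul, lam_one, smul_eq_mul, mul_one, sub_eq_zero] at h4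
  exact h4

/-- Two blocks under `g` are conjugate. -/
theorem exists_conj_of_und (hM : IsPModular p M) (hN : ∃ k : ℕ, N.index = p ^ k)
    (hL : L = H ⊓ N) (hHL : H ≤ Subgroup.normalizer (L : Set G)) {g : Set (IrrCharacter H)}
    (hg : IsPBlock M g) {b b' : Set (IrrCharacter L)} (hb : IsPBlock M b) (hb' : IsPBlock M b')
    (h : Und M g b) (h' : Und M g b') :
    ∃ n : H, irrMap (cjE (n : G) L L (mem_iff_conj_mem_of_mem_normalizer (hHL n.2))) '' b = b' := by
  obtain ⟨χ, hχ⟩ := isPBlock_nonempty hg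
  obtain ⟨ξ, hξ⟩ := isPBlock_nonempty hb
  obtain ⟨ζ, hζ⟩ := isPBlock_nonempty hb'
  refine exists_conj_of_lam hM hHL hb hb' hξ hζ fun z hz hzH => ?_
  rw [lam_eq_of_und N hM hN hL hg hχ hb h hξ hz hzH,
    lam_eq_of_und N hM hN hL hg hχ hb' h' hζ hz hzH]

/-- Conjugation preserves `Und` when it fixes the idempotent of `g`. -/
theorem und_conj {g : Set (IrrCharacter H)} {b : Set (IrrCharacter L)} (h : Und M g b) {x : G}
    (hx : x ∈ Subgroup.normalizer (L : Set G)) (hxg : cj x (emb H (idem M g)) = emb H (idem M g)) :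
    Und M g (irrMap (cjE x L L (mem_iff_conj_mem_of_mem_normalizer hx)) '' b) := by
  unfold Und at h ⊢
  rw [emb_idem_irrMap, ← hxg, ← map_mul, h]

/-- The number of blocks of `L` under a block of `H` is a power of `p`. -/
theorem card_und (hM : IsPModular p M) (hN : ∃ k : ℕ, N.index = p ^ k)
    (hL : L = H ⊓ N) (hHL : H ≤ Subgroup.normalizer (L : Set G)) {g : Set (IrrCharacter H)}
    (hg : IsPBlock M g) : ∃ k : ℕ, Nat.card {b : Blk M L // Und M g b.1} = p ^ k := by
  classical
  have hLH : L ≤ H := by rw [hL]; exact inf_le_left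
  let _ := blkAction M L
  let _ : MulAction H (Blk M L) := MulAction.compHom _ (Subgroup.inclusion hHL)
  obtain ⟨b, hb, hgb⟩ := exists_und' N hM hN hL hg
  have hfix : ∀ x : H, cj (x : G) (emb H (idem M g)) = emb H (idem M g) := fun x =>
    isInv_iff_cj.1 (isInv_emb (isCls_idem g)) x x.2
  have h1 : {b : Blk M L | Und M g b.1} = MulAction.orbit H (⟨b, hb⟩ : Blk M L) := by
    ext b'
    constructor
    · intro h
      obtain ⟨n, hn⟩ := exists_conj_of_und N hM hN hL hHL hg hb b'.2 hgb h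
      exact ⟨n, Subtype.ext hn⟩
    · rintro ⟨n, rfl⟩
      exact und_conj hgb (hHL n.2) (hfix n)
  have h2 : Nat.card {b : Blk M L // Und M g b.1} =
      (MulAction.stabilizer H (⟨b, hb⟩ : Blk M L)).index := by
    rw [MulAction.index_stabilizer, ← h1]
    rfl
  have h3 : N.subgroupOf H ≤ MulAction.stabilizer H (⟨b, hb⟩ : Blk M L) := by
    intro x hx
    rw [MulAction.mem_stabilizer_iff]
    apply Subtype.ext
    change irrMap (cjE (x : G) L L _) '' b = b
    have hxL : (x : G) ∈ L := by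
      rw [hL]
      exact ⟨x.2, hx⟩
    refine idem_injective hM (isUnion_of_isPBlock (isPBlock_irrMap hb)) (isUnion_of_isPBlock hb)
      (emb_injective L ?_)
    exact (emb_idem_irrMap (M := M) (x : G) L L
      (mem_iff_conj_mem_of_mem_normalizer (hHL x.2)) b).trans
        (isInv_iff_cj.1 (isInv_emb (isCls_idem b)) _ hxL)
  obtain ⟨k, hk⟩ := relIndex_pow hM.1 N hN H
  have h4 := Subgroup.index_dvd_of_le h3
  rw [hk] at h4
  obtain ⟨m, -, hm⟩ := (Nat.dvd_prime_pow hM.1).1 h4
  exact ⟨m, by rw [h2, hm]⟩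

/-- An element of order a power of `q ≠ p` fixing the block `g` of `H` fixes a block of `L` under
it. -/
theorem exists_fixed_und (hM : IsPModular p M) (hN : ∃ k : ℕ, N.index = p ^ k)
    (hL : L = H ⊓ N) (hHL : H ≤ Subgroup.normalizer (L : Set G)) {g : Set (IrrCharacter H)}
    (hg : IsPBlock M g) {x : G} (hx : x ∈ Subgroup.normalizer (L : Set G))
    (hxg : cj x (emb H (idem M g)) = emb H (idem M g)) {q k : ℕ} (hq : q.Prime) (hqp : q ≠ p)
    (hxk : x ^ (q ^ k) = 1) :
    ∃ b : Set (IrrCharacter L), IsPBlock M b ∧ Und M g b ∧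
      cj x (emb L (idem M b)) = emb L (idem M b) := by
  classical
  obtain ⟨m, hm⟩ := card_und N hM hN hL hHL hg
  let _ := blkAction M L
  have hσ : ∀ b : Blk M L, Und M g b.1 ↔
      Und M g (MulAction.toPerm (⟨x, hx⟩ : Subgroup.normalizer (L : Set G)) b : Blk M L).1 := by
    intro b
    constructor
    · intro h
      exact und_conj h hx hxg
    · intro h
      have hx' : x⁻¹ ∈ Subgroup.normalizer (L : Set G) := Subgroup.inv_mem _ hx
      have hxg' : cj x⁻¹ (emb H (idem M g)) = emb H (idem M g) := by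
        conv_lhs => rw [← hxg]
        exact cj_inv_cj _ _
      have h1 := und_conj h hx' hxg'
      have h2 : ((⟨x⁻¹, hx'⟩ : Subgroup.normalizer (L : Set G)) •
          ((⟨x, hx⟩ : Subgroup.normalizer (L : Set G)) • b) : Blk M L) = b := by
        rw [← mul_smul]
        have h3 : (⟨x⁻¹, hx'⟩ * ⟨x, hx⟩ : Subgroup.normalizer (L : Set G)) = 1 :=
          Subtype.ext (inv_mul_cancel x)
        rw [h3, one_smul]
      have h4 : Und M g ((⟨x⁻¹, hx'⟩ : Subgroup.normalizer (L : Set G)) •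
          ((⟨x, hx⟩ : Subgroup.normalizer (L : Set G)) • b) : Blk M L).1 := h1
      rwa [h2] at h4
  let σ : Equiv.Perm {b : Blk M L // Und M g b.1} :=
    (MulAction.toPerm (⟨x, hx⟩ : Subgroup.normalizer (L : Set G))).subtypePerm fun b => (hσ b).symm
  have := Fintype.ofFinite {b : Blk M L // Und M g b.1}
  have hσk : σ ^ (q ^ k) = 1 := by
    have h1 : (MulAction.toPerm (⟨x, hx⟩ : Subgroup.normalizer (L : Set G)) : Equiv.Perm (Blk M L)) ^
        (q ^ k) = 1 := by
      have h2 : (MulAction.toPermHom (Subgroup.normalizer (L : Set G)) (Blk M L))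
          ((⟨x, hx⟩ : Subgroup.normalizer (L : Set G)) ^ (q ^ k)) = 1 := by
        have h3 : ((⟨x, hx⟩ : Subgroup.normalizer (L : Set G)) ^ (q ^ k)) = 1 :=
          Subtype.ext (by simpa using hxk)
        rw [h3, map_one]
      rw [map_pow] at h2
      exact h2
    ext1 b
    apply Subtype.ext
    rw [Equiv.Perm.subtypePerm_pow, Equiv.Perm.subtypePerm_apply]
    exact congrArg (fun z : Equiv.Perm (Blk M L) => z b.1) h1
  obtain ⟨c, hc⟩ := OrbitPow.sum_eq_sum_fixed_pow (r := 0) hq σ hσk (fun _ => (1 : ℤ))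
    (fun _ => rfl)
  rw [Finset.sum_const, Finset.card_univ, ← Nat.card_eq_fintype_card, hm] at hc
  by_cases hfix : ∃ b : {b : Blk M L // Und M g b.1}, σ b = b
  · obtain ⟨b, hb⟩ := hfix
    refine ⟨b.1.1, b.1.2, b.2, ?_⟩
    have h1 : irrMap (cjE x L L (mem_iff_conj_mem_of_mem_normalizer hx)) '' b.1.1 = b.1.1 :=
      congrArg (fun z : {b : Blk M L // Und M g b.1} => z.1.1) hb
    rw [← emb_idem_irrMap x L L (mem_iff_conj_mem_of_mem_normalizer hx), h1]
  · exfalso
    push Not at hfix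
    have hfix' : ∀ b : {b : Blk M L // Und M g b.1}, (σ ^ (q ^ 0)) b ≠ b := fun b => by
      rw [pow_zero, pow_one]
      exact hfix b
    rw [Finset.sum_filter] at hc
    simp only [hfix', if_false, Finset.sum_const_zero] at hc
    rw [zero_add, zero_add, pow_one, nsmul_eq_mul, mul_one, nsmul_eq_mul] at hc
    have h1 : q ∣ p ^ m := by
      have : (q : ℤ) ∣ ((p ^ m : ℕ) : ℤ) := ⟨c, by rw [hc]⟩
      exact_mod_cast this
    exact hqp ((Nat.prime_dvd_prime_iff_eq hq hM.1).1 (hq.dvd_of_dvd_pow h1))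

end

/-! ### Coprime action -/

/-- A `p'`-element normalizing a `p`-group `Q`, centralizing `R ≤ Q` and `Q/R`, centralizes `Q`. -/
theorem mem_centralizer_of_series [Fact p.Prime] {Q R : Subgroup G} (hQ : IsPGroup p Q)
    (hRQ : R ≤ Q) {x : G} (hx : ¬ p ∣ orderOf x) (hxR : x ∈ Subgroup.centralizer (R : Set G))
    (h : ∀ y ∈ Q, x * y * x⁻¹ * y⁻¹ ∈ R) : x ∈ Subgroup.centralizer (Q : Set G) := by
  rw [Subgroup.mem_centralizer_iff]
  intro y hy
  set r := x * y * x⁻¹ * y⁻¹ with hr
  have hrR := h y hy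
  have hxr : r * x = x * r := Subgroup.mem_centralizer_iff.1 hxR r hrR
  have h1 : ∀ n : ℕ, x ^ n * y * (x ^ n)⁻¹ = r ^ n * y := by
    intro n
    induction n with
    | zero => simp
    | succ n ih =>
      have h2 : x * r ^ n = r ^ n * x := ((Commute.pow_left (show Commute r x from hxr) n)).symm
      have h3 : x * y * x⁻¹ = r * y := by rw [hr]; group
      calc x ^ (n + 1) * y * (x ^ (n + 1))⁻¹ = x * (x ^ n * y * (x ^ n)⁻¹) * x⁻¹ := by
            rw [pow_succ']; group
        _ = x * (r ^ n * y) * x⁻¹ := by rw [ih]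
        _ = (x * r ^ n) * y * x⁻¹ := by group
        _ = r ^ n * (x * y * x⁻¹) := by rw [h2]; group
        _ = r ^ (n + 1) * y := by rw [h3, pow_succ]; group
  have h4 := h1 (orderOf x)
  rw [pow_orderOf_eq_one, one_mul, inv_one, mul_one, right_eq_mul] at h4
  have h5 : orderOf r ∣ orderOf x := orderOf_dvd_of_pow_eq_one h4
  obtain ⟨k, hk⟩ := hQ ⟨r, hRQ hrR⟩
  have h6 : r ^ p ^ k = 1 := congrArg Subtype.val hk
  have h7 : orderOf r ∣ p ^ k := orderOf_dvd_of_pow_eq_one h6
  have hcop : Nat.Coprime (orderOf x) (p ^ k) :=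
    Nat.Coprime.pow_right k (((Nat.Prime.coprime_iff_not_dvd Fact.out).2 hx).symm)
  have h8 : orderOf r = 1 := Nat.eq_one_of_dvd_coprimes hcop h5 h7
  rw [orderOf_eq_one_iff, hr, mul_inv_eq_one, mul_inv_eq_iff_eq_mul] at h8
  exact h8.symm

/-- Reduction to elements of prime power order. -/
theorem mem_of_forall_prime_pow {C T : Subgroup G} {n : ℕ} (hn : n ≠ 0)
    (h : ∀ (q k : ℕ), q.Prime → q ∣ n → ∀ x ∈ T, x ^ (q ^ k) = 1 → x ∈ C) :
    ∀ x ∈ T, x ^ n = 1 → x ∈ C := by
  induction n using Nat.recOnPosPrimePosCoprime with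
  | zero => exact absurd rfl hn
  | one =>
    intro x _ hx
    rw [pow_one] at hx
    rw [hx]
    exact C.one_mem
  | prime_pow q k hq hk =>
    intro x hxT hx
    exact h q k hq (dvd_pow_self q hk.ne') x hxT hx
  | coprime a b ha hb hab iha ihb =>
    intro x hxT hx
    have h1 : x ^ a ∈ C := ihb (by omega) (fun q k hq hqb => h q k hq (hqb.mul_left a)) (x ^ a)
      (T.pow_mem hxT a) (by rw [← pow_mul, hx])
    have h2 : x ^ b ∈ C := iha (by omega) (fun q k hq hqa => h q k hq (hqa.mul_right b)) (x ^ b)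
      (T.pow_mem hxT b) (by rw [← pow_mul, mul_comm b a, hx])
    have h3 : ((a : ℤ) * a.gcdA b + b * a.gcdB b : ℤ) = 1 := by
      rw [← Nat.gcd_eq_gcd_ab, hab.gcd_eq_one, Nat.cast_one]
    have h4 : x = (x ^ a) ^ (a.gcdA b) * (x ^ b) ^ (a.gcdB b) := by
      rw [← zpow_natCast, ← zpow_natCast, ← zpow_mul, ← zpow_mul, ← zpow_add, h3, zpow_one]
    rw [h4]
    exact C.mul_mem (C.zpow_mem h1 _) (C.zpow_mem h2 _)

/-! ### Blocks of subgroups of `N` -/

section Trans

variable {N : Subgroup G}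

/-- A subgroup `K` of `N` and the same subgroup `L` of `G`. -/
def dnIso (K : Subgroup N) (L : Subgroup G) (hLN : L ≤ N) (h : ∀ n : N, n ∈ K ↔ (n : G) ∈ L) :
    K ≃* L where
  toFun c := ⟨((c : N) : G), (h _).1 c.2⟩
  invFun c := ⟨⟨(c : G), hLN c.2⟩, (h _).2 c.2⟩
  left_inv _ := rfl
  right_inv _ := rfl
  map_mul' _ _ := rfl

theorem emb_emb_idem_irrMap (K : Subgroup N) (L : Subgroup G) (hLN : L ≤ N)
    (h : ∀ n : N, n ∈ K ↔ (n : G) ∈ L) (b : Set (IrrCharacter K)) :
    emb L (idem M (irrMap (dnIso K L hLN h) '' b)) = emb N (emb K (idem M b)) := by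
  refine ext_coeff fun x => ?_
  by_cases hxN : x ∈ N
  · rw [coeff_emb_of_mem _ hxN]
    by_cases hx : x ∈ L
    · have hxK : (⟨x, hxN⟩ : N) ∈ K := (h _).2 hx
      rw [coeff_emb_of_mem _ hx, coeff_emb_of_mem _ hxK,
        ← coeff_idem_irrMap (dnIso K L hLN h) b ⟨⟨x, hxN⟩, hxK⟩]
      rfl
    · have hxK : (⟨x, hxN⟩ : N) ∉ K := fun h' => hx ((h _).1 h')
      rw [coeff_emb_of_notMem _ hx, coeff_emb_of_notMem _ hxK]
  · rw [coeff_emb_of_notMem _ hxN, coeff_emb_of_notMem _ fun h' => hxN (hLN h')]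

theorem emb_cj (x : N) (y : MonoidAlgebra (ResField M) N) [N.Normal] :
    emb N (cj x y) = cj (x : G) (emb N y) := by
  refine ext_coeff fun g => ?_
  rw [coeff_cj]
  by_cases hg : g ∈ N
  · have hg' : (x : G)⁻¹ * g * x ∈ N := N.mul_mem (N.mul_mem (N.inv_mem x.2) hg) x.2
    rw [coeff_emb_of_mem _ hg, coeff_emb_of_mem _ hg', coeff_cj]
    rfl
  · have hg' : (x : G)⁻¹ * g * x ∉ N := by
      intro h'
      apply hg
      have := N.mul_mem (N.mul_mem x.2 h') (N.inv_mem x.2)
      simpa [mul_assoc] using this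
    rw [coeff_emb_of_notMem _ hg, coeff_emb_of_notMem _ hg']

/-- The Brauer image of an element of `K[N]`. -/
theorem emb_br_emb (R : Subgroup G) (R' : Subgroup N) (hR : ∀ n : N, n ∈ R' ↔ (n : G) ∈ R)
    (hRN : R ≤ N) (y : MonoidAlgebra (ResField M) N) :
    emb (Subgroup.centralizer (R : Set G)) (br R (emb N y)) = emb N (emb _ (br R' y)) := by
  have hK : ∀ n : N, n ∈ Subgroup.centralizer (R' : Set N) ↔
      (n : G) ∈ Subgroup.centralizer (R : Set G) := by
    intro n
    rw [Subgroup.mem_centralizer_iff, Subgroup.mem_centralizer_iff]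
    constructor
    · intro h r hr
      exact congrArg Subtype.val (h ⟨r, hRN hr⟩ ((hR _).2 hr))
    · intro h r hr
      exact Subtype.ext (h r ((hR _).1 hr))
  refine ext_coeff fun x => ?_
  by_cases hx : x ∈ Subgroup.centralizer (R : Set G)
  · rw [coeff_emb_of_mem _ hx, coeff_br]
    by_cases hxN : x ∈ N
    · have hxK : (⟨x, hxN⟩ : N) ∈ Subgroup.centralizer (R' : Set N) := (hK _).2 hx
      rw [coeff_emb_of_mem _ hxN, coeff_emb_of_mem _ hxN, coeff_emb_of_mem _ hxK, coeff_br]
    · rw [coeff_emb_of_notMem _ hxN, coeff_emb_of_notMem _ hxN]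
  · rw [coeff_emb_of_notMem _ hx]
    by_cases hxN : x ∈ N
    · have hxK : (⟨x, hxN⟩ : N) ∉ Subgroup.centralizer (R' : Set N) := fun h => hx ((hK _).1 h)
      rw [coeff_emb_of_mem _ hxN, coeff_emb_of_notMem _ hxK]
    · rw [coeff_emb_of_notMem _ hxN]

theorem mem_centralizer_iff_of {R : Subgroup G} {R' : Subgroup N}
    (hR : ∀ n : N, n ∈ R' ↔ (n : G) ∈ R) (hRN : R ≤ N) (n : N) :
    n ∈ Subgroup.centralizer (R' : Set N) ↔ (n : G) ∈ Subgroup.centralizer (R : Set G) := by
  rw [Subgroup.mem_centralizer_iff, Subgroup.mem_centralizer_iff]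
  constructor
  · intro h r hr
    exact congrArg Subtype.val (h ⟨r, hRN hr⟩ ((hR _).2 hr))
  · intro h r hr
    exact Subtype.ext (h r ((hR _).1 hr))

end Trans

/-! ### The theorem -/

section Main

variable (N : Subgroup G) [N.Normal]

theorem mem_of_isPRegular (hp : p.Prime) (hN : ∃ k : ℕ, N.index = p ^ k) {x : G}
    (hx : ¬ p ∣ orderOf x) : x ∈ N := by
  obtain ⟨k, hk⟩ := hN
  have h1 : orderOf (x : G ⧸ N) ∣ p ^ k := by
    rw [← hk, Subgroup.index_eq_card]
    exact orderOf_dvd_natCard _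
  have h2 : orderOf (x : G ⧸ N) ∣ orderOf x := orderOf_map_dvd (QuotientGroup.mk' N) x
  have h3 : Nat.Coprime (orderOf x) (p ^ k) :=
    Nat.Coprime.pow_right k ((hp.coprime_iff_not_dvd.2 hx).symm)
  have h4 : orderOf (x : G ⧸ N) = 1 := Nat.eq_one_of_dvd_coprimes h3 h2 h1
  rw [orderOf_eq_one_iff] at h4
  exact (QuotientGroup.eq_one_iff x).1 h4

/-- The Brauer image of the idempotent of `B`, seen in `K[G]`, is an idempotent. -/
theorem br_idem_mul_self (hM : IsPModular p M) {B : Set (IrrCharacter G)} (hB : IsPBlock M B)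
    {Q : Subgroup G} (hQ : IsPGroup p Q) :
    br Q (idem M B) * br Q (idem M B) = br Q (idem M B) := by
  have : Fact p.Prime := ⟨hM.1⟩
  have := charP_resField hM
  rw [← br_mul hQ (isInv_of_isCls (isCls_idem B) _) (isInv_of_isCls (isCls_idem B) _),
    idem_mul_self hM (isUnion_of_isPBlock hB)]

/-- `(Q, f)` is a Brauer pair of `B` iff `Br_Q(e_B) e_f = e_f`. -/
theorem isBrauerPairOf_iff_mul (hM : IsPModular p M) {B : Set (IrrCharacter G)}
    (hB : IsPBlock M B) {Q : Subgroup G} {f : Set (IrrCharacter (Subgroup.centralizer (Q : Set G)))}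
    (hQf : IsBrauerPair p M Q f) :
    IsBrauerPairOf p M B Q f ↔ br Q (idem M B) * idem M f = idem M f := by
  rw [isBrauerPairOf_iff hM]
  have hc : IsCls (br Q (idem M B)) := isCls_br_of_isCls (isCls_idem B)
  constructor
  · rintro ⟨-, -, h⟩
    exact mul_idem_of_lam_eq_one hM hc (br_idem_mul_self hM hB hQf.1) (isUnion_of_isPBlock hQf.2) h
  · intro h
    refine ⟨hQf, hB, fun ξ hξ => ?_⟩
    have h1 := congrArg (lam M (ξ : Subgroup.centralizer (Q : Set G) → ℂ)) h
    rw [lam_mul ξ hc (isCls_idem f), lam_idem_of_mem hM (isUnion_of_isPBlock hQf.2) hξ,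
      mul_one] at h1
    exact h1

/-- The subpair of a pair is fixed by the elements normalizing both subgroups and fixing the
larger pair. -/
theorem fixed_subpair (hM : IsPModular p M) {Q R : Subgroup G}
    {f : Set (IrrCharacter (Subgroup.centralizer (Q : Set G)))}
    {g : Set (IrrCharacter (Subgroup.centralizer (R : Set G)))} (hQf : IsBrauerPair p M Q f)
    (hle : SubpairLE p M R g Q f) {x : G} (hxQ : x ∈ Subgroup.normalizer (Q : Set G))
    (hxR : x ∈ Subgroup.normalizer (R : Set G))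
    (hx : StabilizesBlock (Subgroup.centralizer (Q : Set G)) f x) :
    StabilizesBlock (Subgroup.centralizer (R : Set G)) g x := by
  have hg : IsPBlock M g := (isBrauerPair_of_subpairLE hle hQf).2
  refine ((Cfsg.Agent.H649.conjIdx_eq_iff hg x).1 ?_).2
  have h1 : Cfsg.Agent.H649.LEIdx p M (Cfsg.Agent.H649.conjIdx x ⟨R, g⟩)
      (Cfsg.Agent.H649.conjIdx x ⟨Q, f⟩) :=
    (Cfsg.Agent.H649.leIdx_conjIdx_iff x).2 hle
  rw [(Cfsg.Agent.H649.conjIdx_eq_iff hQf.2 x).2 ⟨hxQ, hx⟩] at h1
  have h2 : (Cfsg.Agent.H649.conjIdx x ⟨R, g⟩).1 = R :=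
    (Cfsg.Agent.H649.mem_normalizer_iff_map_conj R x).1 hxR
  revert h1 h2
  generalize Cfsg.Agent.H649.conjIdx x ⟨R, g⟩ = a
  intro h1 h2
  obtain ⟨R', g'⟩ := a
  have h3 : R' = R := h2
  subst h3
  rw [subpairLE_unique hM hQf _ _ _ h1 hle]

theorem nilpotent_of_cover (hM : IsPModular p M) (hN : ∃ k : ℕ, N.index = p ^ k)
    {c : Set (IrrCharacter N)} (hc : IsPBlock M c) {B : Set (IrrCharacter G)}
    (hB : IsPBlock M B) (hBc : idem M B = emb N (idem M c)) (hnil : IsNilpotentBlock p M B) :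
    IsNilpotentBlock p M c := by
  have : Fact p.Prime := ⟨hM.1⟩
  have := charP_resField hM
  refine ⟨hc, fun Q f hQf x hxQ hxf hxp => ?_⟩
  set Q' : Subgroup G := Q.map N.subtype with hQ'
  have hQN : Q' ≤ N := by
    rintro _ ⟨n, -, rfl⟩
    exact n.2
  have hQQ : ∀ n : N, n ∈ Q ↔ (n : G) ∈ Q' := by
    intro n
    constructor
    · intro h
      exact ⟨n, h, rfl⟩
    · rintro ⟨m, hm, h⟩
      rwa [← Subtype.ext (show (m : G) = n from h)]
  have hK := mem_centralizer_iff_of hQQ hQN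
  set H : Subgroup G := Subgroup.centralizer (Q' : Set G) with hH
  set L : Subgroup G := H ⊓ N with hL
  have hLN : L ≤ N := inf_le_right
  have hK' : ∀ n : N, n ∈ Subgroup.centralizer (Q : Set N) ↔ (n : G) ∈ L := fun n =>
    ⟨fun h => ⟨(hK n).1 h, n.2⟩, fun h => (hK n).2 h.1⟩
  set b : Set (IrrCharacter L) := irrMap (dnIso _ L hLN hK') '' f with hb
  have hbB : IsPBlock M b := isPBlock_irrMap hQf.1.2
  have hbi : emb L (idem M b) = emb N (emb _ (idem M f)) := emb_emb_idem_irrMap _ L hLN hK' f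
  obtain ⟨g, hg, hgb⟩ := exists_und N hM hN hL hbB
  -- the element `x` as an element of `G`
  have hxQ' : (x : G) ∈ Subgroup.normalizer (Q' : Set G) := by
    rw [Subgroup.mem_normalizer_iff]
    intro y
    constructor
    · intro hy
      have hyN : y ∈ N := hQN hy
      have h1 := (Subgroup.mem_normalizer_iff.1 hxQ ⟨y, hyN⟩).1 ((hQQ _).2 hy)
      exact (hQQ _).1 h1
    · intro hy
      have hyN : y ∈ N := by
        have h1 := N.mul_mem (N.mul_mem (N.inv_mem x.2) (hQN hy)) x.2
        simpa [mul_assoc] using h1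
      have h1 := (Subgroup.mem_normalizer_iff.1 hxQ ⟨y, hyN⟩).2 ((hQQ _).2 hy)
      exact (hQQ _).1 h1
  have hxH : (x : G) ∈ Subgroup.normalizer (H : Set G) := mem_normalizer_centralizer hxQ'
  have hxb : cj (x : G) (emb L (idem M b)) = emb L (idem M b) := by
    rw [hbi, ← emb_cj, ((stabilizesBlock_iff hM hQf.1.2 x).1 hxf).2]
  have hxg : cj (x : G) (emb H (idem M g)) = emb H (idem M g) := by
    have h1 : Und M (irrMap (cjE (x : G) H H (mem_iff_conj_mem_of_mem_normalizer hxH)) '' g) b := by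
      unfold Und at hgb ⊢
      rw [emb_idem_irrMap]
      conv_lhs => rw [← hxb]
      rw [← map_mul, hgb, hxb]
    have h2 := und_unique hM (isPBlock_irrMap hg) hg hbB h1 hgb
    rw [← emb_idem_irrMap (x : G) H H (mem_iff_conj_mem_of_mem_normalizer hxH), h2]
  have hQp : IsPGroup p Q' := by
    have h1 := hQf.1.1
    exact IsPGroup.map h1 N.subtype
  have hpair : IsBrauerPairOf p M B Q' g := by
    rw [isBrauerPairOf_iff_of_mem hM ⟨hQp, hg⟩ hB (isPBlock_nonempty hg).choose_spec]
    have hcl : IsCls (br Q' (idem M B)) := isCls_br_of_isCls (isCls_idem B)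
    have hid := br_idem_mul_self hM hB hQp
    refine (lam_idempotent _ hcl hid).resolve_left fun h0 => ?_
    have h1 : br Q' (idem M B) * idem M g = 0 :=
      mul_idem_of_lam_eq_zero hM hcl hid (isUnion_of_isPBlock hg) fun χ hχ => by
        rw [lam_eq_of_mem hg hχ (isPBlock_nonempty hg).choose_spec]
        exact h0
    -- multiply by `b`
    have h2 : emb H (br Q' (idem M B)) * emb L (idem M b) = emb L (idem M b) := by
      rw [hBc, emb_br_emb Q' Q hQQ hQN, hbi, ← map_mul, ← map_mul,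
        (isBrauerPairOf_iff_mul hM hc hQf.1).1 hQf]
    apply emb_idem_ne_zero hM hbB
    rw [← h2]
    have h3 : emb H (br Q' (idem M B)) * (emb H (idem M g) * emb L (idem M b)) = 0 := by
      rw [← mul_assoc, ← map_mul, h1, map_zero, zero_mul]
    rw [hgb] at h3
    exact h3
  have hxp' : IsPRegular p (x : G) := by
    unfold IsPRegular at hxp ⊢
    rwa [Subgroup.orderOf_coe]
  have h4 := hnil.2 Q' g hpair x hxQ' ((stabilizesBlock_iff hM hg _).2 ⟨hxH, hxg⟩) hxp'
  exact (hK x).2 h4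

theorem cover_nilpotent (hM : IsPModular p M) (hN : ∃ k : ℕ, N.index = p ^ k)
    {c : Set (IrrCharacter N)} {B : Set (IrrCharacter G)}
    (hB : IsPBlock M B) (hBc : idem M B = emb N (idem M c)) (hnil : IsNilpotentBlock p M c) :
    IsNilpotentBlock p M B := by
  have : Fact p.Prime := ⟨hM.1⟩
  have := charP_resField hM
  refine ⟨hB, fun Q f hQf x hxQ hxf hxp => ?_⟩
  -- reduction to prime power order
  have hT : x ∈ pairStab M Q f := (mem_pairStab_iff_stabilizesBlock hM hQf.1.2).2 ⟨hxQ, hxf⟩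
  refine mem_of_forall_prime_pow (C := Subgroup.centralizer (Q : Set G)) (T := pairStab M Q f)
    (n := orderOf x) (orderOf_pos x).ne' ?_ x hT (pow_orderOf_eq_one x)
  clear hT hxQ hxf
  intro q k hq hqx y hyT hyk
  have hqp : q ≠ p := by
    rintro rfl
    exact hxp hqx
  clear hqx hxp x
  obtain ⟨hyQ, hyf⟩ := (mem_pairStab_iff_stabilizesBlock hM hQf.1.2).1 hyT
  have hyp : ¬ p ∣ orderOf y := by
    intro h
    have h1 : orderOf y ∣ q ^ k := orderOf_dvd_of_pow_eq_one hyk
    exact hqp ((Nat.prime_dvd_prime_iff_eq hM.1 hq).1 (hM.1.dvd_of_dvd_pow (h.trans h1))).symm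
  have hyN : y ∈ N := mem_of_isPRegular N hM.1 hN hyp
  set R : Subgroup G := Q ⊓ N with hR
  have hRQ : R ≤ Q := inf_le_left
  have hRN : R ≤ N := inf_le_right
  obtain ⟨g, hle⟩ := exists_subpairLE hM hQf.1 R hRQ
  have hRg : IsBrauerPairOf p M B R g := (isBrauerPairOf_iff_of_subpairLE hM hle).1 hQf
  have hyR : y ∈ Subgroup.normalizer (R : Set G) := by
    rw [Subgroup.mem_normalizer_iff]
    intro z
    rw [hR, Subgroup.mem_inf, Subgroup.mem_inf, ← Subgroup.mem_normalizer_iff.1 hyQ z,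
      ← Subgroup.mem_normalizer_iff.1 (by rw [Subgroup.normalizer_eq_top]; trivial :
        y ∈ Subgroup.normalizer (N : Set G)) z]
  have hyg := fixed_subpair hM hQf.1 hle hyQ hyR hyf
  have hyg' := ((stabilizesBlock_iff hM hRg.1.2 y).1 hyg).2
  set L : Subgroup G := Subgroup.centralizer (R : Set G) ⊓ N with hL
  have hLN : L ≤ N := inf_le_right
  have hNL : ∀ {z : G}, z ∈ Subgroup.normalizer (Subgroup.centralizer (R : Set G) : Set G) →
      z ∈ Subgroup.normalizer (L : Set G) := by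
    intro z hz
    rw [Subgroup.mem_normalizer_iff]
    intro w
    rw [hL, Subgroup.mem_inf, Subgroup.mem_inf, ← Subgroup.mem_normalizer_iff.1 hz w,
      ← Subgroup.mem_normalizer_iff.1 (by rw [Subgroup.normalizer_eq_top]; trivial :
        z ∈ Subgroup.normalizer (N : Set G)) w]
  have hHL : Subgroup.centralizer (R : Set G) ≤ Subgroup.normalizer (L : Set G) := fun z hz =>
    hNL (Subgroup.le_normalizer hz)
  obtain ⟨b, hb, hgb, hyb⟩ := exists_fixed_und N hM hN hL hHL hRg.1.2
    (hNL (mem_normalizer_centralizer hyR)) hyg' hq hqp hyk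
  -- the pair of `c`
  set R' : Subgroup N := R.subgroupOf N with hR'
  have hRR : ∀ n : N, n ∈ R' ↔ (n : G) ∈ R := fun n => Subgroup.mem_subgroupOf
  have hK := mem_centralizer_iff_of hRR hRN
  have hK' : ∀ n : N, n ∈ Subgroup.centralizer (R' : Set N) ↔ (n : G) ∈ L := fun n =>
    ⟨fun h => ⟨(hK n).1 h, n.2⟩, fun h => (hK n).2 h.1⟩
  set φ := dnIso (Subgroup.centralizer (R' : Set N)) L hLN hK' with hφ
  set b' : Set (IrrCharacter (Subgroup.centralizer (R' : Set N))) := irrMap φ.symm '' b with hb'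
  have hb'B : IsPBlock M b' := isPBlock_irrMap hb
  have hbb : irrMap φ '' b' = b := by
    rw [hb', Set.image_image]
    have h1 : ∀ χ : IrrCharacter L, irrMap φ (irrMap φ.symm χ) = χ := by
      intro χ
      apply Subtype.ext
      funext z
      rfl
    simp only [h1, Set.image_id']
  have hbi : emb L (idem M b) = emb N (emb _ (idem M b')) := by
    rw [← emb_emb_idem_irrMap _ L hLN hK' b', hbb]
  have hR'p : IsPGroup p R' := by
    have h1 : IsPGroup p R := isPGroup_of_le hQf.1.1 hRQ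
    exact IsPGroup.comap_subtype h1
  have hpair : IsBrauerPairOf p M c R' b' := by
    rw [isBrauerPairOf_iff_mul hM hnil.1 ⟨hR'p, hb'B⟩]
    apply emb_injective (Subgroup.centralizer (R' : Set N))
    apply emb_injective N
    rw [map_mul, map_mul, ← hbi, ← emb_br_emb R R' hRR hRN, ← hBc]
    have h1 := (isBrauerPairOf_iff_mul hM hB hRg.1).1 hRg
    have h2 : emb _ (br R (idem M B)) * (emb _ (idem M g) * emb L (idem M b)) =
        emb _ (idem M g) * emb L (idem M b) := by
      rw [← mul_assoc, ← map_mul, h1]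
    rw [hgb] at h2
    exact h2
  have hyR' : (⟨y, hyN⟩ : N) ∈ Subgroup.normalizer (R' : Set N) := by
    rw [Subgroup.mem_normalizer_iff]
    intro z
    exact Subgroup.mem_normalizer_iff.1 hyR z
  have hyp' : IsPRegular p (⟨y, hyN⟩ : N) := by
    unfold IsPRegular
    rwa [← Subgroup.orderOf_coe]
  have hyb' : StabilizesBlock (Subgroup.centralizer (R' : Set N)) b' (⟨y, hyN⟩ : N) := by
    refine (stabilizesBlock_iff hM hb'B _).2 ⟨mem_normalizer_centralizer hyR', ?_⟩
    apply emb_injective N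
    rw [emb_cj, ← hbi]
    exact hyb
  have h5 : y ∈ Subgroup.centralizer (R : Set G) :=
    (hK _).1 (hnil.2 R' b' hpair ⟨y, hyN⟩ hyR' hyb' hyp')
  refine mem_centralizer_of_series hQf.1.1 hRQ hyp h5 fun z hz => ?_
  refine ⟨Q.mul_mem ((Subgroup.mem_normalizer_iff.1 hyQ z).1 hz) (Q.inv_mem hz), ?_⟩
  have h6 : z * y⁻¹ * z⁻¹ ∈ N := (inferInstance : N.Normal).conj_mem _ (N.inv_mem hyN) z
  have h7 := N.mul_mem hyN h6
  have h8 : y * (z * y⁻¹ * z⁻¹) = y * z * y⁻¹ * z⁻¹ := by group
  rwa [h8] at h7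

end Main

end Cfsg.Agent.H652.Cabanes
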